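import Mathlib.GroupTheory.PGroup
import Mathlib.GroupTheory.Abelianization.Defs
import Mathlib.GroupTheory.QuotientGroup.Basic
import Mathlib.GroupTheory.Sylow
import Mathlib.GroupTheory.Commutator.Basic

/-!
# Groups with abelian derived subgroup contained in every nontrivial normal subgroup
-/

set_option autoImplicit false

namespace Cfsg.Agent.Lib.Char.ThreeDeg

open scoped commutatorElement

universe u

variable {Q : Type u} [Group Q] [Finite Q]

/-- Either a `p`-group, or the derived subgroup is a `p`-group on which every outside element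
acts without fixed points. -/
theorem minimal_structure (hab : ∀ x ∈ commutator Q, ∀ y ∈ commutator Q, x * y = y * x)
    (hmin : ∀ M : Subgroup Q, M.Normal → M ≠ ⊥ → commutator Q ≤ M) (hne : commutator Q ≠ ⊥) :
    ∃ p : ℕ, p.Prime ∧ (IsPGroup p Q ∨
      (IsPGroup p (commutator Q) ∧ ¬ p ∣ (commutator Q).index ∧
        ∀ g ∉ commutator Q, ∀ x ∈ commutator Q, ∃ y ∈ commutator Q, g * y * g⁻¹ * y⁻¹ = x)) := by
  classical
  set L := commutator Q with hL
  have hLn : L.Normal := inferInstance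
  have hcm : ∀ x y : Q, ⁅x, y⁆ ∈ L := fun x y => by
    rw [hL, commutator_def]
    exact Subgroup.commutator_mem_commutator (Subgroup.mem_top x) (Subgroup.mem_top y)
  obtain ⟨p, hp, hpd⟩ := Nat.exists_prime_and_dvd
    (show Nat.card L ≠ 1 from fun h => hne (Subgroup.card_eq_one.1 h))
  haveI := Fact.mk hp
  refine ⟨p, hp, ?_⟩
  let M : Subgroup Q :=
    { carrier := {x | x ∈ L ∧ x ^ p = 1}
      one_mem' := ⟨one_mem L, one_pow p⟩
      mul_mem' := fun {x y} hx hy => ⟨mul_mem hx.1 hy.1, by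
        rw [Commute.mul_pow (hab x hx.1 y hy.1), hx.2, hy.2, one_mul]⟩
      inv_mem' := fun {x} hx => ⟨inv_mem hx.1, by rw [inv_pow, hx.2, inv_one]⟩ }
  have hMn : M.Normal := ⟨fun x hx g => ⟨hLn.conj_mem x hx.1 g, by
    rw [conj_pow, hx.2, mul_one, mul_inv_cancel]⟩⟩
  have hLM : L ≤ M := hmin M hMn fun h => by
    obtain ⟨x, hx⟩ := exists_prime_orderOf_dvd_card' (G := L) p hpd
    have h1 : (x : Q) ∈ M := ⟨x.2, by
      rw [← Subgroup.coe_pow, ← hx, pow_orderOf_eq_one, Subgroup.coe_one]⟩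
    rw [h, Subgroup.mem_bot] at h1
    have : orderOf x = 1 := orderOf_eq_one_iff.2 (Subtype.ext h1)
    exact hp.ne_one (hx.symm.trans this)
  have hLp : IsPGroup p L := fun x => ⟨1, Subtype.ext (by
    rw [pow_one, Subgroup.coe_pow]; exact (hLM x.2).2)⟩
  by_cases hcen : L ≤ Subgroup.center Q
  · refine Or.inl ?_
    have hZ : ∀ z ∈ Subgroup.center Q, ∀ r : ℕ, r.Prime → orderOf z = r → r = p := by
      intro z hz r hr hzr
      haveI := Fact.mk hr
      have hn : (Subgroup.zpowers z).Normal := ⟨fun x hx g => by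
        obtain ⟨i, rfl⟩ := hx
        have hc : g * z ^ i = z ^ i * g :=
          Subgroup.mem_center_iff.1 (Subgroup.zpow_mem _ hz i) g
        show g * z ^ i * g⁻¹ ∈ _
        rw [hc, mul_inv_cancel_right]
        exact ⟨i, rfl⟩⟩
      have hle : L ≤ Subgroup.zpowers z := hmin _ hn fun h => hr.ne_one (by
        rw [← hzr, orderOf_eq_one_iff, ← Subgroup.mem_bot, ← h]; exact Subgroup.mem_zpowers z)
      have h1 := hpd.trans (Subgroup.card_dvd_of_le hle)
      rw [Nat.card_zpowers, hzr] at h1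
      exact ((Nat.prime_dvd_prime_iff_eq hp hr).1 h1).symm
    have hpow : ∀ x : Q, x ^ p ∈ Subgroup.center Q := fun x => Subgroup.mem_center_iff.2 fun y => by
      set c := ⁅x, y⁆ with hc
      have hcc : ∀ w : Q, w * c = c * w := Subgroup.mem_center_iff.1 (hcen (hcm x y))
      have hstep : ∀ j : ℕ, x ^ j * y = c ^ j * y * x ^ j := by
        intro j
        induction j with
        | zero => simp
        | succ j ih =>
          have h1 : x * y = c * y * x := by rw [hc, commutatorElement_def]; group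
          have h2 : x * c ^ j = c ^ j * x := (Commute.pow_right (hcc x) j).eq
          calc x ^ (j + 1) * y = x * (x ^ j * y) := by rw [pow_succ', mul_assoc]
            _ = x * c ^ j * (y * x ^ j) := by rw [ih]; group
            _ = c ^ j * (x * y) * x ^ j := by rw [h2]; group
            _ = c ^ j * (c * y * x) * x ^ j := by rw [h1]
            _ = c ^ (j + 1) * y * x ^ (j + 1) := by rw [pow_succ c j, pow_succ' x j]; group
      have h := hstep p
      rw [(hLM (hcm x y)).2, one_mul] at h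
      exact h.symm
    intro x
    -- the order of `x ^ p` is a power of `p`
    obtain ⟨k, hk⟩ : ∃ k, orderOf (x ^ p) = p ^ k := by
      refine ⟨_, Nat.eq_prime_pow_of_unique_prime_dvd (orderOf_pos _).ne' fun {r} hr hrd => ?_⟩
      exact hZ ((x ^ p) ^ (orderOf (x ^ p) / r)) (Subgroup.pow_mem _ (hpow x) _) r hr
        (orderOf_pow_orderOf_div (orderOf_pos _).ne' hrd)
    exact ⟨k + 1, by rw [pow_succ', pow_mul, ← hk, pow_orderOf_eq_one]⟩
  · refine Or.inr ⟨hLp, ?_⟩
    set C := Subgroup.centralizer (L : Set Q) with hC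
    have hCn : C.Normal := Subgroup.normal_centralizer
    have hLC : L ≤ C := fun x hx => Subgroup.mem_centralizer_iff.2 fun y hy => hab y hy x hx
    obtain ⟨g₀, hg₀⟩ : ∃ g, g ∉ C := by
      by_contra h
      push Not at h
      exact hcen fun x hx => Subgroup.mem_center_iff.2 fun y =>
        (Subgroup.mem_centralizer_iff.1 (h y) x hx).symm
    have hfix : ∀ g ∉ C, ∀ x ∈ L, g * x = x * g → x = 1 := by
      intro g hg x hx hxg
      set F := L ⊓ Subgroup.centralizer ({g} : Set Q) with hF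
      have hFn : F.Normal := ⟨fun z hz y => by
        obtain ⟨h1, h2⟩ := hz
        refine ⟨hLn.conj_mem z h1 y, Subgroup.mem_centralizer_singleton_iff.2 ?_⟩
        have h2' := Subgroup.mem_centralizer_singleton_iff.1 h2
        have hd : ∀ w ∈ L, Commute w z := fun w hw => hab w hw z h1
        have h3 : Commute (y⁻¹ * g * y) z := by
          have e : y⁻¹ * g * y = ⁅y⁻¹, g⁆ * g := by rw [commutatorElement_def]; group
          rw [e]
          exact (hd _ (hcm _ _)).mul_left h2'.symm
        calc y * z * y⁻¹ * g = y * (z * (y⁻¹ * g * y)) * y⁻¹ := by group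
          _ = y * ((y⁻¹ * g * y) * z) * y⁻¹ := by rw [h3.eq]
          _ = g * (y * z * y⁻¹) := by group⟩
      by_contra hx1
      have hle : L ≤ F := hmin F hFn fun h => hx1 (by
        rw [← Subgroup.mem_bot, ← h]
        exact ⟨hx, Subgroup.mem_centralizer_singleton_iff.2 hxg.symm⟩)
      exact hg (Subgroup.mem_centralizer_iff.2 fun z hz =>
        Subgroup.mem_centralizer_singleton_iff.1 (hle hz).2)
    have hsurj : ∀ g ∉ C, ∀ x ∈ L, ∃ y ∈ L, g * y * g⁻¹ * y⁻¹ = x := by
      intro g hg x hx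
      let δ : L → L := fun y => ⟨g * y * g⁻¹ * (y : Q)⁻¹, mul_mem (hLn.conj_mem _ y.2 g) (inv_mem y.2)⟩
      have hinj : Function.Injective δ := fun y z h => by
        have h' : g * y * g⁻¹ * (y : Q)⁻¹ = g * z * g⁻¹ * (z : Q)⁻¹ := congrArg Subtype.val h
        have hgy : g * (y : Q) * g⁻¹ ∈ L := hLn.conj_mem _ y.2 g
        have e : g * ((z : Q)⁻¹ * y) = ((z : Q)⁻¹ * y) * g := by
          have h1 : g * ((z : Q)⁻¹ * y) * g⁻¹ = (g * z * g⁻¹)⁻¹ * (g * y * g⁻¹) := by group
          have h2 : g * (y : Q) * g⁻¹ = g * z * g⁻¹ * ((z : Q)⁻¹ * y) := by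
            rw [← mul_assoc (g * (z : Q) * g⁻¹), ← h', inv_mul_cancel_right]
          rw [h2, inv_mul_cancel_left] at h1
          exact mul_inv_eq_iff_eq_mul.1 h1
        exact Subtype.ext (inv_mul_eq_one.1 (hfix g hg _ (mul_mem (inv_mem z.2) y.2) e)).symm
      obtain ⟨y, hy⟩ := (Finite.injective_iff_surjective.1 hinj) ⟨x, hx⟩
      exact ⟨y, y.2, congrArg Subtype.val hy⟩
    have hCL : C ≤ L := by
      intro x hx
      obtain ⟨l, hl, hle⟩ := hsurj g₀ hg₀ _ (hcm g₀ x)
      set c := l⁻¹ * x with hc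
      have hcC : c ∈ C := mul_mem (inv_mem (hLC hl)) hx
      have hcg : Commute g₀ c := by
        show g₀ * c = c * g₀
        rw [hc]
        have h1 : g₀ * l * g₀⁻¹ * l⁻¹ = g₀ * x * g₀⁻¹ * x⁻¹ := by rw [hle, commutatorElement_def]
        have h2 : (g₀ * l * g₀⁻¹)⁻¹ * (g₀ * x * g₀⁻¹) = l⁻¹ * x := by
          have h3 : g₀ * x * g₀⁻¹ = g₀ * l * g₀⁻¹ * l⁻¹ * x := by rw [h1]; group
          rw [h3]; group
        calc g₀ * (l⁻¹ * x) = ((g₀ * l * g₀⁻¹)⁻¹ * (g₀ * x * g₀⁻¹)) * g₀ := by group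
          _ = l⁻¹ * x * g₀ := by rw [h2]
      have hcz : c ∈ Subgroup.center Q := Subgroup.mem_center_iff.2 fun y => by
        have h1 : Commute (y * g₀ * y⁻¹) (y * c * y⁻¹) := by
          show _ = _
          calc y * g₀ * y⁻¹ * (y * c * y⁻¹) = y * (g₀ * c) * y⁻¹ := by group
            _ = y * (c * g₀) * y⁻¹ := by rw [hcg.eq]
            _ = y * c * y⁻¹ * (y * g₀ * y⁻¹) := by group
        have h2 : y * c * y⁻¹ ∈ C := hCn.conj_mem c hcC y
        have h3 : Commute ⁅y, g₀⁆ (y * c * y⁻¹) :=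
          Subgroup.mem_centralizer_iff.1 h2 _ (hcm y g₀)
        have h4 : Commute g₀ (y * c * y⁻¹) := by
          have e : g₀ = ⁅y, g₀⁆⁻¹ * (y * g₀ * y⁻¹) := by rw [commutatorElement_def]; group
          rw [e]
          exact h3.inv_left.mul_left h1
        have h5 : ⁅y, c⁆ = 1 := hfix g₀ hg₀ _ (hcm y c) (by
          rw [commutatorElement_def]
          exact (h4.mul_right hcg.inv_right).eq)
        exact commutatorElement_eq_one_iff_mul_comm.1 h5
      have hzb : Subgroup.center Q = ⊥ := by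
        by_contra h
        exact hcen (hmin _ inferInstance h)
      rw [hzb, Subgroup.mem_bot] at hcz
      have : x = l := by rw [hc, inv_mul_eq_one] at hcz; exact hcz.symm
      rw [this]; exact hl
    refine ⟨fun hdvd => ?_, fun g hg => hsurj g fun h => hg (hCL h)⟩
    obtain ⟨gb, hgb⟩ := exists_prime_orderOf_dvd_card' (G := Q ⧸ L) p
      (by rw [← Subgroup.index_eq_card]; exact hdvd)
    obtain ⟨g, rfl⟩ := QuotientGroup.mk_surjective gb
    have hg : g ∉ C := fun h => hp.ne_one (by
      rw [← hgb, (QuotientGroup.eq_one_iff g).2 (hCL h), orderOf_one])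
    set P := (Subgroup.zpowers (QuotientGroup.mk g : Q ⧸ L)).comap (QuotientGroup.mk' L) with hP
    obtain ⟨k, hk⟩ := IsPGroup.iff_card.1 hLp
    have hLP : L ≤ P := fun x hx => by
      rw [hP, Subgroup.mem_comap, QuotientGroup.mk'_apply, (QuotientGroup.eq_one_iff x).2 hx]
      exact one_mem _
    have hgP : g ∈ P := Subgroup.mem_zpowers _
    have hPc : Nat.card P = p ^ (k + 1) := by
      rw [← Subgroup.card_mul_index (L.subgroupOf P),
        Nat.card_congr (Subgroup.subgroupOfEquivOfLe hLP).toEquiv, hk, pow_succ,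
        show (L.subgroupOf P).index = L.relIndex P from rfl]
      congr 1
      have h1 : L.relIndex P = Nat.card (P.map (QuotientGroup.mk' L)) := by
        rw [← Subgroup.relIndex_ker, QuotientGroup.ker_mk']
      rw [h1, hP, Subgroup.map_comap_eq_self_of_surjective (QuotientGroup.mk'_surjective L),
        Nat.card_zpowers, hgb]
    have hPp : IsPGroup p P := IsPGroup.of_card hPc
    haveI : Nontrivial P := Finite.one_lt_card_iff_nontrivial.1
      (hPc ▸ Nat.one_lt_pow k.succ_ne_zero hp.one_lt)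
    obtain ⟨⟨z, hz⟩, hz1⟩ := Subgroup.ne_bot_iff_exists_ne_one.1
      (bot_lt_iff_ne_bot.1 hPp.bot_lt_center)
    have hzc : ∀ y ∈ P, y * (z : Q) = z * y := fun y hy =>
      congrArg Subtype.val (Subgroup.mem_center_iff.1 hz ⟨y, hy⟩)
    have hzC : (z : Q) ∈ C := Subgroup.mem_centralizer_iff.2 fun y hy => hzc y (hLP hy)
    exact hz1 (Subtype.ext (Subtype.ext (hfix g hg _ (hCL hzC) (hzc g hgP))))

end Cfsg.Agent.Lib.Char.ThreeDeg
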