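import Cfsg.Agent.Lib.Char.TwoDegrees
import Cfsg.Agent.Lib.Char.Scalar
import Cfsg.Agent.S0168
import Cfsg.Agent.S0187

/-!
# Two coprime nonlinear degrees of faithful characters

A group whose nonlinear irreducible characters are all faithful cannot have exactly two nonlinear
degrees that are coprime: a product of characters of the two degrees has all its constituents of
one of the degrees, and this survives multiplication by powers of a faithful character.
-/

set_option autoImplicit false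
set_option linter.unusedSectionVars false
set_option linter.style.haveILetI false

namespace Cfsg.Agent.Lib.Char.ThreeDeg

open Cfsg Cfsg.Agent.Lib Cfsg.Agent.Lib.Char
open scoped ComplexConjugate

universe u

variable {G : Type u} [Group G] [Fintype G] {a b : ℕ}

theorem apply_one_deg (χ : IrrCharacter G) : (χ : G → ℂ) 1 = (charDegree (χ : G → ℂ) : ℂ) :=
  apply_one_eq_charDegree (isCharacter_of_isIrr χ.2)

theorem exists_component {f g : G → ℂ} (hf : IsCharacter G f) {φ : G → ℂ}
    (h : classInner (f * g) φ ≠ 0) :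
    ∃ η : IrrCharacter G, classInner f η ≠ 0 ∧ classInner ((η : G → ℂ) * g) φ ≠ 0 := by
  have he := eq_sum_classInner_smul (isClassFunction_of_isCharacter hf)
  rw [he, Finset.sum_mul, classInner_sum_left] at h
  obtain ⟨η, -, hη⟩ := Finset.exists_ne_zero_of_sum_ne_zero h
  rw [smul_mul_assoc, classInner_smul_left] at hη
  exact ⟨η, (mul_ne_zero_iff.1 hη).1, (mul_ne_zero_iff.1 hη).2⟩

theorem classInner_mul_left (f g φ : G → ℂ) :
    classInner (f * g) φ = classInner f (φ * fun x => conj (g x)) := by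
  simp only [classInner, Pi.mul_apply, map_mul, Complex.conj_conj]
  congr 1
  exact Finset.sum_congr rfl fun x _ => by ring

/-- The conjugate character. -/
noncomputable def cjc (χ : IrrCharacter G) : IrrCharacter G :=
  ⟨fun g => conj ((χ : G → ℂ) g), isIrrCharacter_conj χ.2⟩

theorem deg_cjc (χ : IrrCharacter G) : charDegree (cjc χ : G → ℂ) = charDegree (χ : G → ℂ) :=
  charDegree_eq_of_apply_one (by
    show conj ((χ : G → ℂ) 1) = _
    rw [apply_one_deg, Complex.conj_natCast])

theorem cjc_cjc (χ : IrrCharacter G) : cjc (cjc χ) = χ :=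
  Subtype.ext (funext fun _ => Complex.conj_conj _)

theorem deg_of_eq {χ : IrrCharacter G} {ψ : IrrCharacter G} (h : (χ : G → ℂ) = (ψ : G → ℂ)) :
    charDegree (χ : G → ℂ) = charDegree (ψ : G → ℂ) := by rw [h]

/-- The constituents of a product of characters of the two degrees all have one degree. -/
theorem homogeneous (hd : ∀ χ : IrrCharacter G, charDegree (χ : G → ℂ) = 1 ∨
      charDegree (χ : G → ℂ) = a ∨ charDegree (χ : G → ℂ) = b)
    (hab : a.Coprime b) (hne : a ≠ b) {χ ψ : IrrCharacter G}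
    (hχ : charDegree (χ : G → ℂ) = a) (hψ : charDegree (ψ : G → ℂ) = b) :
    (∀ φ : IrrCharacter G, classInner ((χ : G → ℂ) * (ψ : G → ℂ)) φ ≠ 0 →
        charDegree (φ : G → ℂ) = a) ∨
    (∀ φ : IrrCharacter G, classInner ((χ : G → ℂ) * (ψ : G → ℂ)) φ ≠ 0 →
        charDegree (φ : G → ℂ) = b) := by
  classical
  have hc : IsCharacter G ((χ : G → ℂ) * (ψ : G → ℂ)) :=
    isCharacter_mul (isCharacter_of_isIrr χ.2) (isCharacter_of_isIrr ψ.2)
  choose m hm using fun φ : IrrCharacter G => classInner_natCast hc (isCharacter_of_isIrr φ.2)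
  have hlin : ∀ φ : IrrCharacter G, m φ ≠ 0 →
      charDegree (φ : G → ℂ) = a ∨ charDegree (φ : G → ℂ) = b := by
    intro φ hφ
    refine (hd φ).resolve_left fun h1 => hφ ?_
    obtain ⟨l, hl⟩ := exists_hom_of_degree_one (isCharacter_of_isIrr φ.2)
      (by rw [apply_one_deg, h1, Nat.cast_one])
    have hirr : IsIrrCharacter G ((φ : G → ℂ) * fun x => conj ((ψ : G → ℂ) x)) := by
      have h := isIrrCharacter_linear_mul (isIrrCharacter_conj ψ.2) l
      convert h using 1
      funext x; rw [Pi.mul_apply, hl]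
    have hdeg : charDegree ((φ : G → ℂ) * fun x => conj ((ψ : G → ℂ) x)) = b :=
      charDegree_eq_of_apply_one (by
        rw [Pi.mul_apply, apply_one_deg, apply_one_deg, h1, hψ, Nat.cast_one, one_mul,
          Complex.conj_natCast])
    have h0 : classInner ((χ : G → ℂ) * (ψ : G → ℂ)) φ = 0 := by
      rw [classInner_mul_left]
      refine classInner_irr_ne χ.2 hirr fun he => hne ?_
      rw [← hχ, ← hdeg, he]
    rw [hm] at h0
    exact_mod_cast h0
  have hsum : ∑ φ : IrrCharacter G, m φ * charDegree (φ : G → ℂ) = a * b := by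
    have h1 := congrFun (eq_sum_classInner_smul (isClassFunction_of_isCharacter hc)) 1
    simp only [Finset.sum_apply, Pi.smul_apply, smul_eq_mul, Pi.mul_apply, hm, apply_one_deg,
      hχ, hψ] at h1
    exact_mod_cast h1.symm
  by_contra hcon
  push Not at hcon
  obtain ⟨⟨φ₁, h1, h1'⟩, ⟨φ₂, h2, h2'⟩⟩ := hcon
  rw [hm] at h1 h2
  have h1n : m φ₁ ≠ 0 := fun e => h1 (by rw [e, Nat.cast_zero])
  have h2n : m φ₂ ≠ 0 := fun e => h2 (by rw [e, Nat.cast_zero])
  have hb1 := (hlin φ₁ h1n).resolve_left h1'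
  have ha2 := (hlin φ₂ h2n).resolve_right h2'
  -- the total multiplicities of the two degrees
  set A := Finset.univ.filter fun φ : IrrCharacter G => charDegree (φ : G → ℂ) = a with hA
  set x := ∑ φ ∈ A, m φ with hx
  set y := ∑ φ ∈ Aᶜ, m φ with hy
  have hxy : a * x + b * y = a * b := by
    rw [← hsum, ← Finset.sum_add_sum_compl A, hx, hy, Finset.mul_sum, Finset.mul_sum]
    congr 1
    · refine Finset.sum_congr rfl fun φ hφ => ?_
      rw [(Finset.mem_filter.1 hφ).2, mul_comm]
    · refine Finset.sum_congr rfl fun φ hφ => ?_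
      rcases eq_or_ne (m φ) 0 with h0 | h0
      · rw [h0, mul_zero, zero_mul]
      · rw [(hlin φ h0).resolve_left fun e => Finset.mem_compl.1 hφ
          (Finset.mem_filter.2 ⟨Finset.mem_univ _, e⟩), mul_comm]
  have hx0 : 0 < x := lt_of_lt_of_le (Nat.pos_of_ne_zero h2n)
    (Finset.single_le_sum (f := m) (fun _ _ => Nat.zero_le _)
      (Finset.mem_filter.2 ⟨Finset.mem_univ _, ha2⟩))
  have hy0 : 0 < y := lt_of_lt_of_le (Nat.pos_of_ne_zero h1n)
    (Finset.single_le_sum (f := m) (fun _ _ => Nat.zero_le _)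
      (Finset.mem_compl.2 fun h => h1' (Finset.mem_filter.1 h).2))
  have hay : a ∣ b * y := (Nat.dvd_add_right (Dvd.intro x rfl)).1 (hxy ▸ Dvd.intro b rfl)
  have hay' : a ≤ y := Nat.le_of_dvd hy0 (hab.dvd_of_dvd_mul_left hay)
  have ha0 : 0 < a := hχ ▸ charDegree_pos χ.2
  nlinarith [Nat.mul_le_mul_left b hay', Nat.mul_pos ha0 hx0]

/-- All constituents of `χψ` have the degree of `χ`. -/
def Good (a : ℕ) (χ ψ : IrrCharacter G) : Prop :=
  charDegree (χ : G → ℂ) = a ∧
    ∀ φ : IrrCharacter G, classInner ((χ : G → ℂ) * (ψ : G → ℂ)) φ ≠ 0 →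
      charDegree (φ : G → ℂ) = a

theorem good_step (hd : ∀ χ : IrrCharacter G, charDegree (χ : G → ℂ) = 1 ∨
      charDegree (χ : G → ℂ) = a ∨ charDegree (χ : G → ℂ) = b)
    (hab : a.Coprime b) (hne : a ≠ b) {χ ψ φ : IrrCharacter G}
    (hψ : charDegree (ψ : G → ℂ) = b) (hg : Good a χ ψ)
    (hφ : classInner ((χ : G → ℂ) * (ψ : G → ℂ)) φ ≠ 0) : Good a φ (cjc ψ) := by
  refine ⟨hg.2 φ hφ, (homogeneous hd hab hne (hg.2 φ hφ) (deg_cjc ψ ▸ hψ)).resolve_right fun h => ?_⟩
  have hχ : classInner ((φ : G → ℂ) * (cjc ψ : G → ℂ)) χ ≠ 0 := by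
    rw [classInner_mul_left]
    have e : ((χ : G → ℂ) * fun x => conj ((cjc ψ : G → ℂ) x)) = (χ : G → ℂ) * (ψ : G → ℂ) :=
      funext fun x => by
        show (χ : G → ℂ) x * conj (conj ((ψ : G → ℂ) x)) = _
        rw [Complex.conj_conj]; rfl
    rw [e, classInner_conj_symm]
    exact (map_ne_zero _).2 hφ
  exact hne (hg.1 ▸ h χ hχ)

theorem no_good (hd : ∀ χ : IrrCharacter G, charDegree (χ : G → ℂ) = 1 ∨
      charDegree (χ : G → ℂ) = a ∨ charDegree (χ : G → ℂ) = b)
    (hab : a.Coprime b) (hne : a ≠ b) (ha : a ≠ 1) {χ ψ : IrrCharacter G}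
    (hψ : charDegree (ψ : G → ℂ) = b) (hg : Good a χ ψ)
    (hfaith : ∀ g : G, ‖(ψ : G → ℂ) g‖ = ‖(ψ : G → ℂ) 1‖ → g = 1) : False := by
  classical
  set w : G → ℂ := (ψ : G → ℂ) * (cjc ψ : G → ℂ) with hw
  have hwc : IsCharacter G w :=
    isCharacter_mul (isCharacter_of_isIrr ψ.2) (isCharacter_of_isIrr (cjc ψ).2)
  obtain ⟨n, ρ, hρ⟩ := hwc
  have hwn : ∀ g, w g = ((‖(ψ : G → ℂ) g‖ ^ 2 : ℝ) : ℂ) := fun g => by
    show (ψ : G → ℂ) g * conj ((ψ : G → ℂ) g) = _
    rw [Complex.mul_conj']; push_cast; ring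
  have hinj : Function.Injective ρ := (injective_iff_map_eq_one ρ).2 fun g hg => hfaith g (by
    have h1 : w g = w 1 := by
      simp [← hρ, Representation.character, hg]
    rw [hwn, hwn, Complex.ofReal_inj] at h1
    exact (sq_eq_sq₀ (norm_nonneg _) (norm_nonneg _)).1 h1)
  obtain ⟨i, -, hi⟩ := Cfsg.Agent.S0168.result ρ hinj (cjc χ : G → ℂ) (cjc χ).2
  have hpow : (fun g => ρ.character g ^ i) = w ^ i := funext fun g => by rw [Pi.pow_apply, hρ]
  rw [hpow] at hi
  have key : ∀ j : ℕ, ∀ φ : IrrCharacter G, classInner ((χ : G → ℂ) * w ^ j) φ ≠ 0 → Good a φ ψ := by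
    intro j
    induction j with
    | zero =>
      intro φ hφ
      rw [pow_zero, mul_one] at hφ
      rcases eq_or_ne χ φ with rfl | h
      · exact hg
      · exact absurd (classInner_irr_ne χ.2 φ.2 fun e => h (Subtype.ext e)) hφ
    | succ j ih =>
      intro φ hφ
      rw [pow_succ, ← mul_assoc] at hφ
      obtain ⟨η, hη, hηφ⟩ := exists_component
        (isCharacter_mul (isCharacter_of_isIrr χ.2) (show IsCharacter G (w ^ j) from by
          clear hφ ih
          induction j with
          | zero => rw [pow_zero]; exact isCharacter_one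
          | succ j ih => rw [pow_succ]; exact isCharacter_mul ih ⟨n, ρ, hρ⟩)) hφ
      rw [hw, ← mul_assoc] at hηφ
      obtain ⟨ξ, hξ, hξφ⟩ := exists_component
        (isCharacter_mul (isCharacter_of_isIrr η.2) (isCharacter_of_isIrr ψ.2)) hηφ
      have h1 := good_step hd hab hne hψ (ih η hη) hξ
      have h2 := good_step hd hab hne (deg_cjc ψ ▸ hψ) h1 hξφ
      rwa [cjc_cjc] at h2
  have h1 : classInner ((χ : G → ℂ) * w ^ i) (Block.oneIrr G : G → ℂ) ≠ 0 := by
    have e : classInner ((χ : G → ℂ) * w ^ i) (Block.oneIrr G : G → ℂ) =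
        classInner (w ^ i) (cjc χ : G → ℂ) := by
      simp only [classInner, Pi.mul_apply, Block.oneIrr_apply, map_one, mul_one]
      congr 1
      refine Finset.sum_congr rfl fun g _ => ?_
      show _ = (w ^ i) g * conj (conj ((χ : G → ℂ) g))
      rw [Complex.conj_conj, mul_comm]
    rw [e]; exact hi
  exact ha ((key i _ h1).1.symm.trans charDegree_one)

/-- Elements with a value of maximal norm in a faithful irreducible character are central. -/
theorem mem_center_of_norm {ψ : IrrCharacter G}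
    (hf : ∀ g : G, (ψ : G → ℂ) g = (ψ : G → ℂ) 1 → g = 1) {z : G}
    (hz : ‖(ψ : G → ℂ) z‖ = ‖(ψ : G → ℂ) 1‖) : z ∈ Subgroup.center G := by
  refine Subgroup.mem_center_iff.2 fun g => ?_
  have hc := isCharacter_of_isIrr ψ.2
  have hd0 : (ψ : G → ℂ) 1 ≠ 0 := irr_degree_ne_zero ψ.2
  have h1 := (apply_mul_of_norm_eq hc hz (g * z⁻¹ * g⁻¹)).1
  have h2 := (apply_mul_of_norm_eq hc hz z⁻¹).1
  rw [isClassFunction_of_isIrr ψ.2 z⁻¹ g, ← h2, mul_inv_cancel] at h1
  have h3 := hf _ (mul_right_cancel₀ hd0 h1)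
  calc g * z = (z * (g * z⁻¹ * g⁻¹))⁻¹ * (z * g) := by group
    _ = z * g := by rw [h3, inv_one, one_mul]

/-- A faithful character of a group of class two is fully ramified over the centre. -/
theorem sq_eq_center_index {χ : IrrCharacter G}
    (hf : ∀ g : G, (χ : G → ℂ) g = (χ : G → ℂ) 1 → g = 1)
    (hcl : commutator G ≤ Subgroup.center G) :
    charDegree (χ : G → ℂ) ^ 2 * Nat.card (Subgroup.center G) = Nat.card G := by
  classical
  have hc := isCharacter_of_isIrr χ.2
  have hd0 : (χ : G → ℂ) 1 ≠ 0 := irr_degree_ne_zero χ.2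
  have hzn : ∀ z ∈ Subgroup.center G, ‖(χ : G → ℂ) z‖ = ‖(χ : G → ℂ) 1‖ :=
    fun z hz => norm_char_of_mem_center χ.2 hz
  have hzero : ∀ g ∉ Subgroup.center G, (χ : G → ℂ) g = 0 := by
    intro g hg
    obtain ⟨x, hx⟩ : ∃ x, x * g ≠ g * x := by
      by_contra h; push Not at h; exact hg (Subgroup.mem_center_iff.2 h)
    set c := x * g * x⁻¹ * g⁻¹ with hcdef
    have hcZ : c ∈ Subgroup.center G := hcl (by
      rw [commutator_def]
      exact Subgroup.commutator_mem_commutator (Subgroup.mem_top x) (Subgroup.mem_top g))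
    have h1 := (apply_mul_of_norm_eq hc (hzn c hcZ) g).1
    rw [show c * g = x * g * x⁻¹ by rw [hcdef]; group, isClassFunction_of_isIrr χ.2 g x] at h1
    have hc1 : (χ : G → ℂ) c ≠ (χ : G → ℂ) 1 := fun e => hx (by
      have h := hf c e
      rwa [hcdef, mul_inv_eq_one, mul_inv_eq_iff_eq_mul] at h)
    by_contra h0
    exact hc1 (mul_left_cancel₀ h0 (by rw [h1, mul_comm]))
  have hn := classInner_irr_self χ.2
  rw [classInner, inv_mul_eq_one₀ (card_ne_zero_complex G)] at hn
  have hs : ∑ g : G, (χ : G → ℂ) g * conj ((χ : G → ℂ) g) =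
      ∑ g ∈ Finset.univ.filter (fun g => g ∈ Subgroup.center G),
        ((charDegree (χ : G → ℂ) : ℂ) ^ 2) := by
    rw [Finset.sum_filter]
    refine Finset.sum_congr rfl fun g _ => ?_
    split_ifs with hg
    · rw [Complex.mul_conj', hzn g hg, apply_one_deg, Complex.norm_natCast]; push_cast; ring
    · rw [hzero g hg, zero_mul]
  rw [hs, Finset.sum_const, nsmul_eq_mul] at hn
  have hcard : (Finset.univ.filter fun g : G => g ∈ Subgroup.center G).card =
      Nat.card (Subgroup.center G) := by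
    rw [Nat.card_eq_fintype_card, Fintype.card_subtype]
  rw [hcard] at hn
  have : Nat.card G = Nat.card (Subgroup.center G) * charDegree (χ : G → ℂ) ^ 2 := by
    exact_mod_cast hn
  rw [this, mul_comm]

/-- A group whose nonlinear irreducibles are faithful does not have two coprime nonlinear
degrees. -/
theorem not_both (hd : ∀ χ : IrrCharacter G, charDegree (χ : G → ℂ) = 1 ∨
      charDegree (χ : G → ℂ) = a ∨ charDegree (χ : G → ℂ) = b)
    (hab : a.Coprime b) (hne : a ≠ b) (ha : a ≠ 1) (hb : b ≠ 1)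
    (hf : ∀ χ : IrrCharacter G, charDegree (χ : G → ℂ) ≠ 1 →
      ∀ g : G, (χ : G → ℂ) g = (χ : G → ℂ) 1 → g = 1)
    {χ ψ : IrrCharacter G} (hχ : charDegree (χ : G → ℂ) = a) (hψ : charDegree (ψ : G → ℂ) = b) :
    False := by
  classical
  by_cases hZ : Subgroup.center G = ⊥
  · have hfn : ∀ η : IrrCharacter G, charDegree (η : G → ℂ) ≠ 1 →
        ∀ g : G, ‖(η : G → ℂ) g‖ = ‖(η : G → ℂ) 1‖ → g = 1 := fun η hη g hg => by
      have h := mem_center_of_norm (hf η hη) hg
      rwa [hZ, Subgroup.mem_bot] at h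
    rcases homogeneous hd hab hne hχ hψ with h | h
    · exact no_good hd hab hne ha hψ ⟨hχ, h⟩ (hfn ψ (hψ ▸ hb))
    · refine no_good (fun η => (hd η).imp id Or.symm) hab.symm hne.symm hb hχ
        (χ := ψ) ⟨hψ, fun φ hφ => h φ ?_⟩ (hfn χ (hχ ▸ ha))
      rwa [mul_comm]
  · have hcl : commutator G ≤ Subgroup.center G := by
      rw [commutator_def]
      refine Subgroup.commutator_le.2 fun x _ y _ => ?_
      have hlin : ∀ μ : IrrCharacter (G ⧸ Subgroup.center G), (μ : G ⧸ Subgroup.center G → ℂ) 1 = 1 := by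
        intro μ
        obtain ⟨⟨η, hη⟩, rfl⟩ := (inflateEquiv (Subgroup.center G)).symm.surjective μ
        obtain ⟨z, hz, hz1⟩ := (Subgroup.center G).bot_or_exists_ne_one.resolve_left hZ
        have h1 : charDegree (η : G → ℂ) = 1 := by
          by_contra h
          exact hz1 (hf η h z (hη z hz))
        have e := inflateEquiv_apply (Subgroup.center G) ((inflateEquiv (Subgroup.center G)).symm ⟨η, hη⟩) 1
        rw [Equiv.apply_symm_apply, QuotientGroup.mk_one] at e
        rw [← e, apply_one_deg, h1, Nat.cast_one]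
      have hc := (Cfsg.Agent.S0187.result).2 hlin (QuotientGroup.mk x) (QuotientGroup.mk y)
      rw [← QuotientGroup.eq_one_iff, commutatorElement_def]
      simp only [QuotientGroup.mk_mul, QuotientGroup.mk_inv]
      rw [hc]; group
    have e1 := sq_eq_center_index (hf χ (hχ ▸ ha)) hcl
    have e2 := sq_eq_center_index (hf ψ (hψ ▸ hb)) hcl
    rw [hχ] at e1
    rw [hψ] at e2
    have h3 : a ^ 2 = b ^ 2 := Nat.eq_of_mul_eq_mul_right Nat.card_pos (e1.trans e2.symm)
    exact hne ((Nat.pow_left_injective (by norm_num)) h3)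

end Cfsg.Agent.Lib.Char.ThreeDeg
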