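import Cfsg.Agent.Lib.Char.ThreeDeg.Tools
import Cfsg.Agent.Lib.Char.ThreeDeg.Tensor
import Cfsg.Agent.Lib.Char.ThreeDeg.Structure

/-!
# Three degrees, the two nonlinear ones coprime
-/

set_option autoImplicit false
set_option linter.unusedSectionVars false
set_option linter.style.haveILetI false

namespace Cfsg.Agent.Lib.Char.ThreeDeg

open Cfsg Cfsg.Agent.Lib Cfsg.Agent.Lib.Char
open Cfsg.Agent.Lib.Char.TwoDegPrime (lf lf_inj cj lf_cj cj_apply eq_of_forall_hom)
open scoped commutatorElement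

universe u

variable {G : Type u} [Group G] [Fintype G] {a b : ℕ}

/-- The quotient case: `Q` has degrees `1`, `a`, and `b` is coprime to `a`. -/
theorem of_quotient (hd : ∀ χ : IrrCharacter G, charDegree (χ : G → ℂ) = 1 ∨
      charDegree (χ : G → ℂ) = a ∨ charDegree (χ : G → ℂ) = b)
    (hab : a.Coprime b) (ha : a ≠ 1) (hb : b ≠ 1)
    (hbx : ∃ ψ : IrrCharacter G, charDegree (ψ : G → ℂ) = b)
    (K : Subgroup G) [K.Normal] (hKne : ¬ commutator G ≤ K)
    (hKmax : ∀ M : Subgroup G, M.Normal → K < M → commutator G ≤ M)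
    (hQ : ∀ μ : IrrCharacter (G ⧸ K), charDegree (μ : G ⧸ K → ℂ) = 1 ∨
      charDegree (μ : G ⧸ K → ℂ) = a) : derivedSeries G 3 = ⊥ := by
  classical
  have hmapc : (commutator G).map (QuotientGroup.mk' K) = commutator (G ⧸ K) := by
    rw [← derivedSeries_one, ← derivedSeries_one,
      map_derivedSeries_eq (QuotientGroup.mk'_surjective K)]
  have hne : commutator (G ⧸ K) ≠ ⊥ := fun h => hKne fun x hx => by
    rw [← QuotientGroup.eq_one_iff, ← Subgroup.mem_bot, ← h, ← hmapc]
    exact ⟨x, hx, rfl⟩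
  have hQnl : ∃ μ : IrrCharacter (G ⧸ K), charDegree (μ : G ⧸ K → ℂ) = a := by
    by_contra h
    push Not at h
    refine hne ?_
    rw [← derivedSeries_one]
    exact derivedSeries_one_of_comm (comm_of_all_one fun μ => (hQ μ).resolve_right (h μ))
  obtain ⟨μ, hμ⟩ := hQnl
  have hmin : ∀ M : Subgroup (G ⧸ K), M.Normal → M ≠ ⊥ → commutator (G ⧸ K) ≤ M := by
    intro M hM hM1
    have hlt : K < M.comap (QuotientGroup.mk' K) := by
      refine lt_of_le_of_ne (fun x hx => by
        rw [Subgroup.mem_comap, QuotientGroup.mk'_apply, (QuotientGroup.eq_one_iff x).2 hx]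
        exact one_mem _) fun e => hM1 ?_
      rw [← Subgroup.map_comap_eq_self_of_surjective (QuotientGroup.mk'_surjective K) M, ← e,
        QuotientGroup.map_mk'_self]
    rw [← hmapc, Subgroup.map_le_iff_le_comap]
    exact hKmax _ inferInstance hlt
  have habQ := TwoDegrees.derived_comm (m := a) hQ ⟨μ, hμ⟩ ha
  obtain ⟨p, hp, hcase⟩ := minimal_structure habQ hmin hne
  haveI := Fact.mk hp
  haveI := Fintype.ofFinite K
  haveI := Fintype.ofFinite (G ⧸ K)
  rcases hcase with hP | ⟨hLp, hpn, hsurj⟩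
  · -- a `p`-group quotient is impossible
    exfalso
    obtain ⟨ψ, hψ⟩ := hbx
    obtain ⟨k, hk⟩ := IsPGroup.iff_card.1 hP
    have hbK : (charDegree (ψ : G → ℂ)).Coprime K.index := by
      rw [hψ, Subgroup.index_eq_card, hk]
      have hdvd := hk ▸ hμ ▸ charDegree_dvd_card μ.2
      obtain ⟨j, -, hj⟩ := (Nat.dvd_prime_pow hp).1 hdvd
      rcases Nat.eq_zero_or_pos j with rfl | hj0
      · exact absurd (hj.trans (pow_zero p)) ha
      rw [hj] at hab
      exact (((Nat.coprime_pow_left_iff hj0 _ _).1 hab).pow_left k).symm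
    have hirr := restrict_of_coprime K ψ hbK
    have hprod := gallagher_mul K (isCharacter_of_isIrr ψ.2) hirr (inflateEquiv K μ).1.2
      (inflateEquiv K μ).2
    have hdeg : charDegree (((inflateEquiv K μ).1 : G → ℂ) * (ψ : G → ℂ)) = a * b := by
      rw [charDegree_mul (isCharacter_of_isIrr (inflateEquiv K μ).1.2) (isCharacter_of_isIrr ψ.2),
        deg_inflate, hμ, hψ]
    have ha0 : 0 < a := hμ ▸ charDegree_pos μ.2
    have hb0 : 0 < b := hψ ▸ charDegree_pos ψ.2
    rcases hd ⟨_, hprod⟩ with h | h | h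
    · exact ha (Nat.eq_one_of_mul_eq_one_right (hdeg.symm.trans h))
    · exact hb ((mul_eq_left₀ ha0.ne').1 (hdeg.symm.trans h))
    · exact ha ((mul_eq_right₀ hb0.ne').1 (hdeg.symm.trans h))
  -- the Frobenius case
  set L := commutator (G ⧸ K) with hL
  set N := L.comap (QuotientGroup.mk' K) with hN
  haveI hNn : N.Normal := by rw [hN]; exact Subgroup.Normal.comap inferInstance _
  have hKN : K ≤ N := fun x hx => by
    rw [hN, Subgroup.mem_comap, QuotientGroup.mk'_apply, (QuotientGroup.eq_one_iff x).2 hx]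
    exact one_mem _
  have hGN : commutator G ≤ N := by
    rw [hN, ← Subgroup.map_le_iff_le_comap, hmapc]
  have hidx : N.index = L.index := L.index_comap_of_surjective (QuotientGroup.mk'_surjective K)
  -- every element outside `N` is fixed-point-free on `N / K`
  have hA : ∀ g ∉ N, ∀ x ∈ N, ∃ y ∈ N, ∃ k ∈ K, x = g * y * g⁻¹ * y⁻¹ * k := by
    intro g hg x hx
    obtain ⟨yb, hyb, he⟩ := hsurj (QuotientGroup.mk g) hg (QuotientGroup.mk x) hx
    obtain ⟨y, rfl⟩ := QuotientGroup.mk_surjective yb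
    refine ⟨y, hyb, (g * y * g⁻¹ * y⁻¹)⁻¹ * x, ?_, (mul_inv_cancel_left _ _).symm⟩
    rw [← QuotientGroup.eq]
    simpa only [QuotientGroup.mk_mul, QuotientGroup.mk_inv] using he
  haveI := Fintype.ofFinite N
  have hfix : ∀ l : N →* ℂˣ, (∀ n : N, (n : G) ∈ K → l n = 1) → ∀ g ∉ N,
      conjChar N g (lf l) = lf l → l = 1 := by
    intro l hl g hg he
    rw [← lf_cj] at he
    have he' : cj N g l = l := lf_inj he
    refine MonoidHom.ext fun x => ?_
    obtain ⟨y, hy, k, hk, hxe⟩ := hA g hg x x.2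
    have h1 : x = (⟨g * y * g⁻¹, hNn.conj_mem y hy g⟩ : N) * (⟨y, hy⟩ : N)⁻¹ * ⟨k, hKN hk⟩ :=
      Subtype.ext (by simpa using hxe)
    rw [h1, map_mul, map_mul, map_inv, hl ⟨k, hKN hk⟩ hk, mul_one, MonoidHom.one_apply,
      ← cj_apply N g l ⟨y, hy⟩, he', mul_inv_cancel]
  -- a nontrivial linear character of `N / K`
  obtain ⟨lam, hlam, hlam1⟩ : ∃ l : N →* ℂˣ, (∀ n : N, (n : G) ∈ K → l n = 1) ∧ l ≠ 1 := by
    obtain ⟨x, hx⟩ := Subgroup.ne_bot_iff_exists_ne_one.1 hne
    obtain ⟨l, hl⟩ : ∃ l : L →* ℂˣ, l x ≠ l 1 := by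
      by_contra h
      push Not at h
      exact hx (eq_of_forall_hom (fun y z : L => Subtype.ext (habQ y y.2 z z.2)) h)
    refine ⟨l.comp ((QuotientGroup.mk' K).subgroupComap L), fun n hn => ?_, fun h => hl ?_⟩
    · have : ((QuotientGroup.mk' K).subgroupComap L) n = 1 :=
        Subtype.ext ((QuotientGroup.eq_one_iff (n : G)).2 hn)
      rw [MonoidHom.comp_apply, this, map_one]
    · obtain ⟨y, hy⟩ := QuotientGroup.mk_surjective (x : G ⧸ K)
      have hyN : y ∈ N := by
        rw [hN, Subgroup.mem_comap, QuotientGroup.mk'_apply, hy]; exact x.2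
      have := DFunLike.congr_fun h ⟨y, hyN⟩
      rw [MonoidHom.comp_apply, MonoidHom.one_apply] at this
      rw [map_one, ← this]
      exact congrArg l (Subtype.ext hy.symm)
  have hNt : N.index ≠ 1 := fun h => by
    rw [Subgroup.index_eq_one] at h
    have hcomm : L = ⊤ := by
      rw [← Subgroup.map_comap_eq_self_of_surjective (QuotientGroup.mk'_surjective K) L, ← hN, h,
        Subgroup.map_top_of_surjective _ (QuotientGroup.mk'_surjective K)]
    refine hne ?_
    rw [hL, ← derivedSeries_one]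
    exact derivedSeries_one_of_comm fun x y =>
      habQ x (hcomm ▸ Subgroup.mem_top x) y (hcomm ▸ Subgroup.mem_top y)
  have hindex : N.index = a := by
    have hin : inertia N (lf lam) = N := by
      refine le_antisymm (fun g hg => ?_) (le_inertia N (isClassFunction_of_isIrr (isIrrCharacter_linear lam)))
      by_contra hgN
      exact hlam1 (hfix lam hlam g hgN hg)
    have hirr : IsIrrCharacter G (indFun N (lf lam)) :=
      isIrrCharacter_indFun N (θ := lf lam) (isIrrCharacter_linear lam) hin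
    have hdeg : charDegree (indFun N (lf lam)) = N.index := charDegree_eq_of_apply_one (by
      rw [indFun_one]; simp [lf])
    have hker : ∀ k ∈ K, indFun N (lf lam) k = indFun N (lf lam) 1 := by
      intro k hk
      have h0 := indFun_apply_of_mem N (lf lam) (⟨k, hKN hk⟩ : N)
      have h1 := indFun_apply_of_mem N (lf lam) (1 : N)
      rw [Subgroup.coe_one] at h1
      rw [show indFun N (lf lam) k = indFun N (lf lam) ((⟨k, hKN hk⟩ : N) : G) from rfl, h0, h1]
      refine congrArg _ (Finset.sum_congr rfl fun x _ => ?_)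
      rw [conjChar_apply, conjChar_apply]
      refine congrArg Units.val ?_
      rw [hlam _ ((inferInstance : K.Normal).conj_mem k hk x), hlam _ (by simp)]
    obtain ⟨μ', hμ', he⟩ := exists_irr_deflation hirr K hker
    have : charDegree μ' = N.index := by
      refine charDegree_eq_of_apply_one ?_
      rw [← QuotientGroup.mk_one, he, apply_one_eq_charDegree (isCharacter_of_isIrr hirr), hdeg]
    rcases hQ ⟨μ', hμ'⟩ with h | h
    · exact absurd (this.symm.trans h) hNt
    · exact this.symm.trans h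
  -- degrees of `N`
  haveI := Fintype.ofFinite (K.subgroupOf N)
  obtain ⟨k, hk⟩ := IsPGroup.iff_card.1 hLp
  have hKNi : (K.subgroupOf N).index = p ^ k := by
    rw [show (K.subgroupOf N).index = K.relIndex N from rfl, ← hk]
    have h := Subgroup.relIndex_ker N (QuotientGroup.mk' K)
    rwa [QuotientGroup.ker_mk', hN,
      Subgroup.map_comap_eq_self_of_surjective (QuotientGroup.mk'_surjective K)] at h
  have hpa : ¬ p ∣ a := by rw [← hindex, hidx]; exact hpn
  have hNdeg : ∀ ψ : IrrCharacter N, charDegree (ψ : N → ℂ) = 1 ∨ charDegree (ψ : N → ℂ) = b := by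
    intro ψ
    obtain ⟨χ, e, -, he, hdvd⟩ := exists_over N ψ
    rw [hindex] at hdvd
    rcases hd χ with h | h | h
    · exact Or.inl (Nat.eq_one_of_mul_eq_one_left (he.symm.trans h))
    swap
    · refine Or.inr (Nat.dvd_antisymm (h ▸ Dvd.intro_left _ he.symm) ?_)
      rw [h] at hdvd
      exact hab.symm.dvd_of_dvd_mul_left hdvd
    left
    set d := charDegree (ψ : N → ℂ) with hdd
    have hda : d ∣ a := h ▸ Dvd.intro_left _ he.symm
    by_contra hd1
    have hdp : d.Coprime (K.subgroupOf N).index := by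
      rw [hKNi]
      exact Nat.Coprime.pow_right k ((hp.coprime_iff_not_dvd.2 fun h => hpa (h.trans hda)).symm)
    have hirr := restrict_of_coprime (K.subgroupOf N) ψ hdp
    -- every twist has a stabilizer outside `N`
    have hstab : ∀ l : N →* ℂˣ, ∃ g ∉ N, conjChar N g (lf l * (ψ : N → ℂ)) = lf l * (ψ : N → ℂ) := by
      intro l
      have hi : IsIrrCharacter N (lf l * (ψ : N → ℂ)) := by
        have := isIrrCharacter_linear_mul ψ.2 l
        exact this
      have hdl : charDegree (lf l * (ψ : N → ℂ)) = d := charDegree_eq_of_apply_one (by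
        rw [Pi.mul_apply, apply_one_eq_charDegree (isCharacter_of_isIrr ψ.2), ← hdd]; simp [lf])
      obtain ⟨χ', e', -, he', -⟩ := exists_over N ⟨_, hi⟩
      simp only [hdl] at he'
      have hle := le_inertia N (isClassFunction_of_isIrr hi)
      by_contra hno
      push Not at hno
      have hin : inertia N (lf l * (ψ : N → ℂ)) = N :=
        le_antisymm (fun g hg => by by_contra hgN; exact hno g hgN hg) hle
      rw [hin, hindex] at he'
      rcases hd χ' with h' | h' | h'
      · exact hd1 (Nat.eq_one_of_mul_eq_one_left (he'.symm.trans h'))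
      · rw [h'] at he'
        have ha0 : 0 < a := h ▸ charDegree_pos χ.2
        have : e' * d = 1 := by
          have h2 : a * (e' * d) = a * 1 := by rw [mul_one]; linarith [he']
          exact Nat.eq_of_mul_eq_mul_left ha0 h2
        exact hd1 (Nat.eq_one_of_mul_eq_one_left this)
      · have hdb : d ∣ b := h' ▸ Dvd.intro_left _ he'.symm
        exact hd1 (Nat.eq_one_of_dvd_coprimes hab hda hdb)
    obtain ⟨g, hg, hgψ⟩ := hstab 1
    rw [show lf (1 : N →* ℂˣ) * (ψ : N → ℂ) = (ψ : N → ℂ) from funext fun x => by simp [lf]] at hgψ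
    obtain ⟨h', hh', hhψ⟩ := hstab lam
    have hmul : ∀ (x : G) (f₁ f₂ : N → ℂ), conjChar N x (f₁ * f₂) = conjChar N x f₁ * conjChar N x f₂ :=
      fun _ _ _ => rfl
    rw [hmul, ← lf_cj] at hhψ
    -- `ψ` conjugated by `h'` is a twist of `ψ`
    set nu := lam * (cj N h' lam)⁻¹ with hnu
    have hψh : conjChar N h' (ψ : N → ℂ) = lf nu * (ψ : N → ℂ) := by
      funext x
      have h0 := congrFun hhψ x
      simp only [Pi.mul_apply, lf, hnu, MonoidHom.mul_apply, MonoidHom.inv_apply, Units.val_mul,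
        Units.val_inv_eq_inv_val] at h0 ⊢
      have hne0 : ((cj N h' lam x : ℂˣ) : ℂ) ≠ 0 := Units.ne_zero _
      field_simp
      linear_combination h0
    have hcjK : ∀ (x : G) (l : N →* ℂˣ), (∀ n : N, (n : G) ∈ K → l n = 1) →
        ∀ n : N, (n : G) ∈ K → cj N x l n = 1 := fun x l hl n hn => by
      rw [cj_apply]; exact hl _ ((inferInstance : K.Normal).conj_mem n hn x)
    have hnuK : ∀ n : N, (n : G) ∈ K → nu n = 1 := fun n hn => by
      rw [hnu, MonoidHom.mul_apply, MonoidHom.inv_apply, hlam n hn, hcjK h' lam hlam n hn, inv_one,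
        mul_one]
    have hnufix : conjChar N g (lf nu) = lf nu := by
      rw [← lf_cj]
      refine congrArg lf ?_
      refine twist_injective (K.subgroupOf N) (isCharacter_of_isIrr ψ.2) hirr
        (fun n hn => hcjK g nu hnuK n hn) (fun n hn => hnuK n hn) ?_
      have hc : (h' * g)⁻¹ * (g * h') ∈ N := hGN (by
        have : (h' * g)⁻¹ * (g * h') = ⁅g⁻¹, h'⁻¹⁆ := by rw [commutatorElement_def]; group
        rw [this, commutator_def]
        exact Subgroup.commutator_mem_commutator (Subgroup.mem_top _) (Subgroup.mem_top _))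
      have e1 : conjChar N (h' * g) (ψ : N → ℂ) = conjChar N g (lf nu) * (ψ : N → ℂ) := by
        rw [conjChar_mul, hψh, hmul, hgψ]
      have e2 : conjChar N (g * h') (ψ : N → ℂ) = lf nu * (ψ : N → ℂ) := by
        rw [conjChar_mul, hgψ, hψh]
      have e3 : conjChar N (g * h') (ψ : N → ℂ) = conjChar N (h' * g) (ψ : N → ℂ) := by
        rw [show g * h' = (h' * g) * ((h' * g)⁻¹ * (g * h')) by group, conjChar_mul,
          conjChar_of_mem N (isClassFunction_of_isIrr (isIrrCharacter_conjChar N (h' * g) ψ.2)) hc]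
      rw [lf_cj, ← e1, ← e3, e2]
    have hnu1 := hfix nu hnuK g hg hnufix
    have hnu2 : lam = cj N h' lam := MonoidHom.ext fun x => mul_inv_eq_one.1 (by
      simpa [hnu] using DFunLike.congr_fun hnu1 x)
    refine hlam1 (hfix lam hlam h' hh' ?_)
    rw [← lf_cj, ← hnu2]
  exact derivedSeries_bot_of_le (i := 1) (j := 2) (by rw [derivedSeries_one]; exact hGN)
    (derivedSeries_two hNdeg)

/-- Three degrees with coprime nonlinear ones: derived length at most three. -/
theorem coprime_case (hd : ∀ χ : IrrCharacter G, charDegree (χ : G → ℂ) = 1 ∨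
      charDegree (χ : G → ℂ) = a ∨ charDegree (χ : G → ℂ) = b)
    (hab : a.Coprime b) (hne : a ≠ b) (ha : a ≠ 1) (hb : b ≠ 1)
    (hax : ∃ χ : IrrCharacter G, charDegree (χ : G → ℂ) = a)
    (hbx : ∃ ψ : IrrCharacter G, charDegree (ψ : G → ℂ) = b) : derivedSeries G 3 = ⊥ := by
  classical
  by_cases hcm : commutator G = ⊥
  · exact le_bot_iff.1 ((derivedSeries_antitone G (by norm_num : 1 ≤ 3)).trans
      (by rw [derivedSeries_one, hcm]))
  set S : Finset (Subgroup G) := Finset.univ.filter fun K => K.Normal ∧ ¬ commutator G ≤ K with hS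
  obtain ⟨K, hK, hKmax⟩ := S.exists_maximal
    ⟨⊥, Finset.mem_filter.2 ⟨Finset.mem_univ _, inferInstance, fun h => hcm (le_bot_iff.1 h)⟩⟩
  obtain ⟨hKn, hKne⟩ := (Finset.mem_filter.1 hK).2
  haveI := hKn
  have hKmax' : ∀ M : Subgroup G, M.Normal → K < M → commutator G ≤ M := fun M hM hlt => by
    by_contra h
    exact hlt.not_ge (hKmax (Finset.mem_filter.2 ⟨Finset.mem_univ _, hM, h⟩) hlt.le)
  haveI := Fintype.ofFinite (G ⧸ K)
  have hQd : ∀ μ : IrrCharacter (G ⧸ K), charDegree (μ : G ⧸ K → ℂ) = 1 ∨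
      charDegree (μ : G ⧸ K → ℂ) = a ∨ charDegree (μ : G ⧸ K → ℂ) = b := fun μ => by
    have := hd (inflateEquiv K μ).1
    rwa [deg_inflate] at this
  have hf : ∀ μ : IrrCharacter (G ⧸ K), charDegree (μ : G ⧸ K → ℂ) ≠ 1 →
      ∀ x : G ⧸ K, (μ : G ⧸ K → ℂ) x = (μ : G ⧸ K → ℂ) 1 → x = 1 := by
    intro μ hμ x hx
    set χ := (inflateEquiv K μ).1 with hχ
    have hc := isCharacter_of_isIrr χ.2
    haveI := charKer_normal hc
    have hKle : K ≤ charKer (χ : G → ℂ) := fun k hk => (mem_charKer hc).2 ((inflateEquiv K μ).2 k hk)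
    rcases hKle.lt_or_eq with hlt | heq
    · exfalso
      have hle := hKmax' _ inferInstance hlt
      refine hμ ?_
      -- the deflation to the abelian quotient is linear
      obtain ⟨ν, hν, he⟩ := exists_irr_deflation χ.2 (charKer (χ : G → ℂ))
        (fun n hn => (mem_charKer hc).1 hn)
      have hcomm : ∀ u v : G ⧸ charKer (χ : G → ℂ), u * v = v * u := by
        intro u v
        obtain ⟨u, rfl⟩ := QuotientGroup.mk_surjective u
        obtain ⟨v, rfl⟩ := QuotientGroup.mk_surjective v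
        rw [← QuotientGroup.mk_mul, ← QuotientGroup.mk_mul, QuotientGroup.eq]
        refine hle ?_
        have : (u * v)⁻¹ * (v * u) = ⁅v⁻¹, u⁻¹⁆ := by rw [commutatorElement_def]; group
        rw [this, commutator_def]
        exact Subgroup.commutator_mem_commutator (Subgroup.mem_top _) (Subgroup.mem_top _)
      have h1 : ν 1 = 1 := (Cfsg.Agent.S0187.result).1 hcomm ⟨ν, hν⟩
      rw [← deg_inflate K μ, ← hχ]
      refine charDegree_eq_of_apply_one ?_
      rw [← he 1, QuotientGroup.mk_one, h1, Nat.cast_one]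
    · obtain ⟨g, rfl⟩ := QuotientGroup.mk_surjective x
      rw [QuotientGroup.eq_one_iff, heq, mem_charKer hc]
      rw [hχ, inflateEquiv_apply, inflateEquiv_apply, QuotientGroup.mk_one]
      exact hx
  have hboth : ¬ ((∃ μ : IrrCharacter (G ⧸ K), charDegree (μ : G ⧸ K → ℂ) = a) ∧
      ∃ μ : IrrCharacter (G ⧸ K), charDegree (μ : G ⧸ K → ℂ) = b) := fun ⟨⟨μ, h1⟩, ⟨ν, h2⟩⟩ =>
    not_both hQd hab hne ha hb hf h1 h2
  by_cases hA : ∃ μ : IrrCharacter (G ⧸ K), charDegree (μ : G ⧸ K → ℂ) = a
  · refine of_quotient hd hab ha hb hbx K hKne hKmax' fun μ => ?_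
    rcases hQd μ with h | h | h
    · exact Or.inl h
    · exact Or.inr h
    · exact absurd ⟨hA, μ, h⟩ hboth
  · refine of_quotient (fun χ => (hd χ).imp id Or.symm) hab.symm hb ha hax K hKne hKmax' fun μ => ?_
    exact (hQd μ).imp id fun h => h.resolve_left fun h' => hA ⟨μ, h'⟩

end Cfsg.Agent.Lib.Char.ThreeDeg
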